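import Cfsg.Agent.H608.HT.Moment
import Cfsg.Agent.H966.TI.J4Norm
import Cfsg.Agent.H34.TI.Defs
import Cfsg.Agent.H34.TI.J4Cnt
import Cfsg.Agent.H23.FreeAct

/-!
# S4933: `J₄`, `p = 11` (helper608): the local part

* `mem_zpowers_of_comm` : a conjugate of `z` which commutes with some `u ≠ 1` in `P` lies in `⟨z⟩`;
* `n2_mod` : `N₂(z) ≡ 9` modulo 1331; `isTI` : the Sylow 11-subgroups are TI.
-/

set_option autoImplicit false
set_option linter.unusedSectionVars false

open Cfsg Subgroup
open scoped Pointwise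

namespace Cfsg.Agent.H608.HT

open Cfsg.Agent.H265.J4LP

universe u

variable {G : Type u} [Group G] [Finite G] {D : Data11 G}

theorem z_not_x (E : Eleven D) : ¬ IsConj D.z D.x := fun hc => by
  have := E.rep_inj 0 1 hc
  exact absurd this (by decide)

theorem pow_of_conj (E : Eleven D) {a : G} (ha : IsConj D.z a) : a ^ 11 = 1 := by
  have h : orderOf a = 11 := by rw [← H34.TI.orderOf_conj ha, E.ord_z]
  rw [← h, pow_orderOf_eq_one]

theorem mem_of_comm_z (E : Eleven D) {a : G} (ha : IsConj D.z a) (h : a * D.z = D.z * a) : a ∈ zpowers D.z := by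
  by_contra hcon
  have h1 : a ∈ D.P := H966.TI.mem_P_of_cent E h (by
    rw [show (1331 : ℕ) = 11 * 121 by norm_num, pow_mul, pow_of_conj E ha, one_pow])
  exact z_not_x E (ha.trans (E.conj_x a h1 hcon))

/-- the centralizer of an element of `P` outside `⟨z⟩` -/
theorem comm_of_cent (E : Eleven D) {u : G} (hu : u ∈ D.P) (hu1 : u ∉ zpowers D.z) {a b : G} (ha : a * u = u * a)
    (hb : b * u = u * b) (ha1 : a ^ 11 = 1) (hb1 : b ^ 11 = 1) : a * b = b * a := by
  have : Fact (Nat.Prime 11) := ⟨by norm_num⟩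
  set C := centralizer ({u} : Set G) with hC
  have hcard : Nat.card C = 242 := by
    have h1 : Nat.card (centralizer ({D.x} : Set G)) = 242 := E.card_cent 1
    rw [← h1]
    obtain ⟨c, hc⟩ := isConj_iff.1 (E.conj_x u hu hu1)
    refine Nat.card_congr
      { toFun := fun y => ⟨c * y * c⁻¹, ?_⟩
        invFun := fun y => ⟨c⁻¹ * y * c, ?_⟩
        left_inv := fun y => Subtype.ext (by simp [mul_assoc])
        right_inv := fun y => Subtype.ext (by simp [mul_assoc]) }
    · rw [mem_centralizer_singleton_iff, ← hc]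
      have := mem_centralizer_singleton_iff.1 y.2
      calc c * y * c⁻¹ * (c * u * c⁻¹) = c * (y * u) * c⁻¹ := by group
        _ = c * (u * y) * c⁻¹ := by rw [this]
        _ = _ := by group
    · rw [mem_centralizer_singleton_iff]
      have := mem_centralizer_singleton_iff.1 y.2
      calc c⁻¹ * y * c * u = c⁻¹ * (y * (c * u * c⁻¹)) * c := by group
        _ = c⁻¹ * (y * D.x) * c := by rw [hc]
        _ = c⁻¹ * (D.x * y) * c := by rw [this]
        _ = c⁻¹ * ((c * u * c⁻¹) * y) * c := by rw [hc]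
        _ = _ := by group
  obtain ⟨Q⟩ : Nonempty (Sylow 11 C) := inferInstance
  have hQ : Nat.card (Q : Subgroup C) = 11 ^ 2 := by
    rw [Q.card_eq_multiplicity, hcard]
    congr 1
    have h2 : (242 : ℕ) = 11 ^ 2 * 2 := by norm_num
    rw [h2, Nat.factorization_mul (by norm_num) (by norm_num), Nat.factorization_pow, Finsupp.add_apply,
      Finsupp.smul_apply, (by norm_num : Nat.Prime 11).factorization_self,
      Nat.factorization_eq_zero_of_not_dvd (by norm_num)]
    rfl
  have hidx : (Q : Subgroup C).index = 2 := by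
    have h3 := card_mul_index (Q : Subgroup C)
    rw [hQ, hcard] at h3
    omega
  have hn : (Q : Subgroup C).Normal := Subgroup.normal_of_index_eq_two hidx
  have hmem : ∀ y : C, y ^ 11 = 1 → y ∈ (Q : Subgroup C) := by
    intro y hy
    have h4 : (QuotientGroup.mk' (Q : Subgroup C)) y ^ 11 = 1 := by rw [← map_pow, hy, map_one]
    have h5 : (QuotientGroup.mk' (Q : Subgroup C)) y ^ 2 = 1 := by
      have h6 : Nat.card (C ⧸ (Q : Subgroup C)) = 2 := hidx
      rw [← h6]
      exact pow_card_eq_one'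
    have h6 : (QuotientGroup.mk' (Q : Subgroup C)) y = 1 := by
      have h7 : (QuotientGroup.mk' (Q : Subgroup C)) y ^ 11 = ((QuotientGroup.mk' (Q : Subgroup C)) y ^ 2) ^ 5 *
          (QuotientGroup.mk' (Q : Subgroup C)) y := by
        rw [← pow_mul, ← pow_succ]
      rw [h4, h5, one_pow, one_mul] at h7
      exact h7.symm
    exact (QuotientGroup.eq_one_iff y).1 h6
  have hab := (IsPGroup.isMulCommutative_of_card_eq_prime_sq hQ).is_comm.comm
    ⟨⟨a, mem_centralizer_singleton_iff.2 ha⟩, hmem _ (Subtype.ext ha1)⟩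
    ⟨⟨b, mem_centralizer_singleton_iff.2 hb⟩, hmem _ (Subtype.ext hb1)⟩
  exact congrArg (fun q : (Q : Subgroup C) => ((q : C) : G)) hab

/-- **The key.** -/
theorem mem_zpowers_of_comm (E : Eleven D) {a u : G} (ha : IsConj D.z a) (hu : u ∈ D.P) (hu1 : u ≠ 1)
    (hau : a * u = u * a) : a ∈ zpowers D.z := by
  apply mem_of_comm_z E ha
  by_cases h : u ∈ zpowers D.z
  · -- `z` is a power of `u`
    have hz : D.z ∈ zpowers u := by
      have h1 : orderOf u = 11 := by
        rw [H34.TI.orderOf_conj (E.conj_z u h hu1), E.ord_z]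
      have h2 : zpowers u = zpowers D.z := by
        refine Subgroup.eq_of_le_of_card_ge (zpowers_le.2 h) ?_
        rw [Nat.card_zpowers, Nat.card_zpowers, h1, E.ord_z]
      rw [h2]
      exact mem_zpowers _
    obtain ⟨k, hk⟩ := mem_zpowers_iff.1 hz
    rw [← hk]
    exact ((show Commute a u from hau).zpow_right k).eq
  · refine comm_of_cent E hu h hau (E.z_comm u hu) (pow_of_conj E ha) ?_
    rw [← E.ord_z, pow_orderOf_eq_one]

/-- the set of the factorizations of `z` in the class of `z` -/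
theorem n2_eq (z : G) : N2 z = Nat.card {a : G // IsConj z a ∧ IsConj z (a⁻¹ * z)} := by
  refine Nat.card_congr
    { toFun := fun q => ⟨q.1.1, q.2.1, ?_⟩
      invFun := fun a => ⟨(a.1, a.1⁻¹ * z), a.2.1, a.2.2, mul_inv_cancel_left _ _⟩
      left_inv := fun q => ?_
      right_inv := fun a => rfl }
  · have h := q.2.2.2
    have h2 : q.1.1⁻¹ * z = q.1.2 := inv_mul_eq_iff_eq_mul.2 h.symm
    rw [h2]
    exact q.2.2.1
  · apply Subtype.ext
    have h := q.2.2.2
    have h2 : q.1.1⁻¹ * z = q.1.2 := inv_mul_eq_iff_eq_mul.2 h.symm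
    exact Prod.ext rfl h2

theorem isConj_conj {z a g : G} (h : IsConj z a) : IsConj z (g * a * g⁻¹) :=
  h.trans (isConj_iff.2 ⟨g, rfl⟩)

/-- **`N₂(z)` modulo 1331** -/
theorem n2_mod (E : Eleven D) : ∃ t : ℕ, N2 D.z = 9 + 1331 * t := by
  classical
  have := Fintype.ofFinite G
  rw [n2_eq]
  let S : Type u := {a : G // (IsConj D.z a ∧ IsConj D.z (a⁻¹ * D.z)) ∧ a ∉ zpowers D.z}
  -- the free action
  have hact : ∀ (d : D.P) (a : G), ((IsConj D.z a ∧ IsConj D.z (a⁻¹ * D.z)) ∧ a ∉ zpowers D.z) →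
      ((IsConj D.z (d * a * (d : G)⁻¹) ∧ IsConj D.z ((d * a * (d : G)⁻¹)⁻¹ * D.z)) ∧ d * a * (d : G)⁻¹ ∉ zpowers D.z) := by
    rintro d a ⟨⟨h1, h2⟩, h3⟩
    have hdz : D.z * d = d * D.z := E.z_comm d d.2
    refine ⟨⟨isConj_conj h1, ?_⟩, ?_⟩
    · have h4 : (d * a * (d : G)⁻¹)⁻¹ * D.z = d * (a⁻¹ * D.z) * (d : G)⁻¹ := by
        calc (d * a * (d : G)⁻¹)⁻¹ * D.z = d * a⁻¹ * (d : G)⁻¹ * (D.z * d) * (d : G)⁻¹ := by group
          _ = d * a⁻¹ * (d : G)⁻¹ * (d * D.z) * (d : G)⁻¹ := by rw [hdz]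
          _ = _ := by group
      rw [h4]
      exact isConj_conj h2
    · intro h4
      apply h3
      obtain ⟨k, hk⟩ := mem_zpowers_iff.1 h4
      refine mem_zpowers_iff.2 ⟨k, ?_⟩
      have h5 : Commute (D.z ^ k) (d : G) := (show Commute D.z (d : G) from hdz).zpow_left k
      have h6 : a = (d : G)⁻¹ * (D.z ^ k) * d := by rw [hk]; group
      rw [h6, mul_assoc, h5.eq, inv_mul_cancel_left]
  let act : MulAction D.P S :=
    { smul := fun d s => ⟨d * s.1 * (d : G)⁻¹, hact d s.1 s.2⟩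
      one_smul := fun s => Subtype.ext (by
        show ((1 : D.P) : G) * s.1 * ((1 : D.P) : G)⁻¹ = s.1
        simp)
      mul_smul := fun c d s => Subtype.ext (by
        show ((c * d : D.P) : G) * s.1 * ((c * d : D.P) : G)⁻¹ = c * (d * s.1 * (d : G)⁻¹) * (c : G)⁻¹
        rw [coe_mul, mul_inv_rev]
        simp only [mul_assoc]) }
  have hdvd : Nat.card D.P ∣ Nat.card S := by
    refine H23.FreeAct.card_dvd_of_free fun d s hds => ?_
    by_contra hd
    have h1 : (d : G) * s.1 * (d : G)⁻¹ = s.1 := congrArg Subtype.val hds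
    have h2 : s.1 * d = d * s.1 := by
      rw [mul_inv_eq_iff_eq_mul] at h1
      exact h1.symm
    exact s.2.2 (mem_zpowers_of_comm E s.2.1.1 d.2 (fun h => hd (Subtype.ext h)) h2)
  rw [E.card_P] at hdvd
  obtain ⟨t, ht⟩ := hdvd
  refine ⟨t, ?_⟩
  -- the splitting
  have h1 : Nat.card {a : G // IsConj D.z a ∧ IsConj D.z (a⁻¹ * D.z)} =
      Nat.card {a : G // (IsConj D.z a ∧ IsConj D.z (a⁻¹ * D.z)) ∧ a ∈ zpowers D.z} + Nat.card S := by
    rw [Nat.card_eq_fintype_card, Nat.card_eq_fintype_card, Nat.card_eq_fintype_card, Fintype.card_subtype,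
      Fintype.card_subtype, Fintype.card_subtype,
      ← Finset.filter_filter (fun a : G => IsConj D.z a ∧ IsConj D.z (a⁻¹ * D.z)) (fun a => a ∈ zpowers D.z),
      ← Finset.filter_filter (fun a : G => IsConj D.z a ∧ IsConj D.z (a⁻¹ * D.z)) (fun a => a ∉ zpowers D.z)]
    exact (Finset.card_filter_add_card_filter_not _).symm
  have h2 : Nat.card {a : G // (IsConj D.z a ∧ IsConj D.z (a⁻¹ * D.z)) ∧ a ∈ zpowers D.z} = 9 := by
    have h3 : Nat.card {a : G // (IsConj D.z a ∧ IsConj D.z (a⁻¹ * D.z)) ∧ a ∈ zpowers D.z} =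
        Nat.card {a : zpowers D.z // a ≠ 1 ∧ a ≠ ⟨D.z, mem_zpowers _⟩} := by
      refine Nat.card_congr
        { toFun := fun a => ⟨⟨a.1, a.2.2⟩, ?_, ?_⟩
          invFun := fun a => ⟨a.1, ⟨?_, ?_⟩, a.1.2⟩
          left_inv := fun a => rfl
          right_inv := fun a => rfl }
      · intro h
        have h4 : a.1 = 1 := congrArg Subtype.val h
        have h5 := a.2.1.1
        rw [h4] at h5
        have h6 := H34.TI.orderOf_conj h5
        rw [E.ord_z, orderOf_one] at h6
        omega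
      · intro h
        have h4 : a.1 = D.z := congrArg Subtype.val h
        have h5 := a.2.1.2
        rw [h4, inv_mul_cancel] at h5
        have h6 := H34.TI.orderOf_conj h5
        rw [E.ord_z, orderOf_one] at h6
        omega
      · exact (E.conj_z a.1 a.1.2 fun h => a.2.1 (Subtype.ext h)).symm
      · refine (E.conj_z _ (mul_mem (inv_mem a.1.2) (mem_zpowers _)) fun h => a.2.2 ?_).symm
        apply Subtype.ext
        rw [inv_mul_eq_one] at h
        exact h
    rw [h3, Nat.card_eq_fintype_card, Fintype.card_subtype]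
    have h4 : (Finset.univ.filter fun a : zpowers D.z => a ≠ 1 ∧ a ≠ ⟨D.z, mem_zpowers _⟩) =
        (Finset.univ.erase 1).erase ⟨D.z, mem_zpowers _⟩ := by
      ext a
      simp only [Finset.mem_filter, Finset.mem_univ, true_and, Finset.mem_erase, and_true]
      exact and_comm
    rw [h4, Finset.card_erase_of_mem, Finset.card_erase_of_mem (Finset.mem_univ _), Finset.card_univ,
      ← Nat.card_eq_fintype_card, Nat.card_zpowers, E.ord_z]
    rw [Finset.mem_erase]
    refine ⟨fun h => ?_, Finset.mem_univ _⟩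
    have h5 : D.z = 1 := congrArg Subtype.val h
    have h6 := E.ord_z
    rw [h5, orderOf_one] at h6
    omega
  rw [h1, h2, ht]

/-- `D.P` is a Sylow subgroup -/
theorem exists_sylow [Fact (Nat.Prime 11)] (E : Eleven D) (hN : Nat.card G = 86775571046077562880) :
    ∃ P : Sylow 11 G, (P : Subgroup G) = D.P := by
  have h1 : IsPGroup 11 D.P := IsPGroup.of_card (n := 3) (by rw [E.card_P]; norm_num)
  obtain ⟨P', hP'⟩ := h1.exists_le_sylow
  have h2 : Nat.card (P' : Subgroup G) = 1331 := by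
    rw [P'.card_eq_multiplicity, hN, H34.TI.fact_eleven (by norm_num) (by norm_num) (by norm_num)]
    norm_num
  exact ⟨P', (Subgroup.eq_of_le_of_card_ge hP' (by rw [h2, E.card_P])).symm⟩

/-- **The Sylow 11-subgroup is TI** -/
theorem isTI (E : Eleven D) : H34.TI.IsTI D.P := by
  intro g hg
  rw [eq_bot_iff]
  rintro u ⟨hu, hu'⟩
  rw [mem_bot]
  by_contra hu1
  have h1 : g⁻¹ * u * g ∈ D.P := by
    have h2 := Subgroup.mem_pointwise_smul_iff_inv_smul_mem.1 hu'
    rw [← map_inv, MulAut.smul_def, MulAut.conj_apply, inv_inv] at h2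
    exact h2
  have h2 : (g * D.z * g⁻¹) * u = u * (g * D.z * g⁻¹) := by
    have h3 := E.z_comm _ h1
    calc (g * D.z * g⁻¹) * u = g * (D.z * (g⁻¹ * u * g)) * g⁻¹ := by group
      _ = g * ((g⁻¹ * u * g) * D.z) * g⁻¹ := by rw [h3]
      _ = _ := by group
  have h3 := mem_zpowers_of_comm E (isConj_iff.2 ⟨g, rfl⟩) hu hu1 h2
  have h4 : g⁻¹ ∈ normalizer (D.P : Set G) := H966.TI.mem_norm E h3 (by group)
  exact hg (by
    have h5 := inv_mem h4
    rwa [inv_inv] at h5)

end Cfsg.Agent.H608.HT
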