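import Cfsg.Agent.S0145
import Cfsg.Agent.S0165
import Cfsg.Agent.S0840
import Cfsg.Agent.Blocks.Basic
import Cfsg.Agent.Blocks.CyclicUpper
import Cfsg.Agent.H34.TI.Col11

/-!
# S4933: the moment test for `|P| = p³` (helper608)

`z` in the centre of a Sylow `p`-subgroup of order `p³`, all `χ(z)` integers with `χ(1) ≡ χ(z)` modulo `p²`. If
every irreducible character has degree prime to `p` or divisible by `p³`, then
`p³ ∣ N₂(z) - 3 |z^G| - |z^G|²`.
-/

set_option autoImplicit false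

open Cfsg Subgroup
open scoped ComplexConjugate

namespace Cfsg.Agent.H608.HT

universe u

variable {G : Type u} [Group G] [Finite G]

/-- the number of factorizations of `z` -/
noncomputable def N2 (z : G) : ℕ := Nat.card {q : G × G // IsConj z q.1 ∧ IsConj z q.2 ∧ q.1 * q.2 = z}

/-- **The moment test.** -/
theorem moment (p : ℕ) [hp : Fact p.Prime] (h3 : p ^ 3 ∣ Nat.card G) (h4 : ¬ p ^ 4 ∣ Nat.card G) {z : G} (hz1 : z ≠ 1)
    (hz : p ∣ orderOf z) (a : IrrCharacter G → ℤ) (ha : ∀ χ : IrrCharacter G, (χ : G → ℂ) z = a χ)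
    (hcong : ∀ χ : IrrCharacter G, (p : ℤ) ^ 2 ∣ charDegree (χ : G → ℂ) - a χ)
    (hall : ∀ χ : IrrCharacter G, ¬ p ∣ charDegree (χ : G → ℂ) ∨ p ^ 3 ∣ charDegree (χ : G → ℂ)) :
    (p : ℤ) ^ 3 ∣ (N2 z : ℤ) - 3 * ((centralizer ({z} : Set G)).index : ℤ) - ((centralizer ({z} : Set G)).index : ℤ) ^ 2 := by
  classical
  have := Fintype.ofFinite G
  have := Characters.Core.finite_irr (G := G)
  have := Fintype.ofFinite (IrrCharacter G)
  have hpp : p.Prime := hp.out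
  set k := (centralizer ({z} : Set G)).index with hk
  set c := Nat.card (centralizer ({z} : Set G)) with hc
  set N := Nat.card G with hN
  have hck : c * k = N := card_mul_index _
  have hk0 : k ≠ 0 := index_ne_zero_of_finite
  have hN0 : N ≠ 0 := Nat.card_pos.ne'
  let n : IrrCharacter G → ℤ := fun χ => charDegree (χ : G → ℂ)
  have hn1 : ∀ χ : IrrCharacter G, (χ : G → ℂ) 1 = n χ := fun χ => by
    rw [Blocks.Basic.irr_one_eq_charDegree χ.2]; simp [n]
  have hn0 : ∀ χ : IrrCharacter G, n χ ≠ 0 := fun χ => by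
    have := Blocks.Basic.charDegree_pos χ.2
    simp only [n]
    exact_mod_cast this.ne'
  have hdvd : ∀ χ : IrrCharacter G, ∃ m : ℤ, (N : ℤ) = n χ * m := fun χ => by
    obtain ⟨m, hm⟩ := Blocks.CyclicUpper.charDegree_dvd χ.2
    exact ⟨m, by simp only [n]; rw [hN, hm]; push_cast; rfl⟩
  choose m hm using hdvd
  -- the sums
  have s1 : ∑ χ, n χ * n χ = N := by
    have h := (H34.TI.gram (1 : G) 1 (a := n) (b := n) (fun χ => (hn1 χ).symm) (fun χ => (hn1 χ).symm)).1 (IsConj.refl _)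
    rw [h]
    have h5 : centralizer ({1} : Set G) = ⊤ := by
      ext g; simp [mem_centralizer_singleton_iff]
    rw [h5, Nat.card_congr (Subgroup.topEquiv (G := G)).toEquiv]
  have s2 : ∑ χ, a χ * n χ = 0 :=
    (H34.TI.gram z 1 (a := a) (b := n) (fun χ => (ha χ).symm) (fun χ => (hn1 χ).symm)).2 fun h => hz1 (by
      obtain ⟨g, hg⟩ := isConj_iff.1 h
      have : z = g⁻¹ * 1 * g := by rw [← hg]; group
      rw [this]; group)
  have s3 : ∑ χ, a χ * a χ = c :=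
    (H34.TI.gram z z (a := a) (b := a) (fun χ => (ha χ).symm) (fun χ => (ha χ).symm)).1 (IsConj.refl _)
  have s4 : (k : ℤ) ^ 2 * ∑ χ, a χ ^ 3 * m χ = (N : ℤ) ^ 2 * N2 z := by
    have h := S0840.result z z z
    rw [H34.TI.card_isConj, finsum_eq_sum_of_fintype] at h
    have h5 : ∑ χ : IrrCharacter G, (χ : G → ℂ) z * (χ : G → ℂ) z * conj ((χ : G → ℂ) z) / (χ : G → ℂ) 1 =
        (∑ χ, a χ ^ 3 * m χ : ℤ) / (N : ℂ) := by
      push_cast
      rw [Finset.sum_div]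
      refine Finset.sum_congr rfl fun χ _ => ?_
      have h6 : ((N : ℤ) : ℂ) = (n χ : ℂ) * m χ := by rw [hm χ]; push_cast; rfl
      have h7 : (N : ℂ) = (n χ : ℂ) * m χ := by rw [← h6]; simp
      have h8 : (n χ : ℂ) ≠ 0 := by exact_mod_cast hn0 χ
      have h9 : (m χ : ℂ) ≠ 0 := by
        intro h10
        rw [h10, mul_zero] at h7
        exact hN0 (by exact_mod_cast h7)
      rw [ha, hn1, map_intCast, h7]
      field_simp
    rw [h5] at h
    have hNC : (N : ℂ) ≠ 0 := by exact_mod_cast hN0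
    have h6 : (N : ℂ) ^ 2 * (N2 z : ℂ) = (k : ℂ) ^ 2 * (∑ χ, a χ ^ 3 * m χ : ℤ) := by
      rw [N2, h, ← hk, ← hN]
      field_simp
    have h7 : (((N : ℤ) ^ 2 * N2 z : ℤ) : ℂ) = (((k : ℤ) ^ 2 * ∑ χ, a χ ^ 3 * m χ : ℤ) : ℂ) := by
      push_cast
      push_cast at h6
      exact h6
    exact_mod_cast h7.symm
  -- the total
  have s5 : (k : ℤ) ^ 2 * ∑ χ, m χ * (a χ - n χ) ^ 3 = (N : ℤ) ^ 2 * (N2 z - 3 * k - k ^ 2) := by
    have h5 : ∀ χ, m χ * (a χ - n χ) ^ 3 = a χ ^ 3 * m χ - 3 * N * (a χ * a χ) + 3 * N * (a χ * n χ) - N * (n χ * n χ) := by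
      intro χ
      rw [hm χ]
      ring
    rw [Finset.sum_congr rfl fun χ _ => h5 χ, Finset.sum_sub_distrib, Finset.sum_add_distrib, Finset.sum_sub_distrib,
      ← Finset.mul_sum, ← Finset.mul_sum, ← Finset.mul_sum, s1, s2, s3]
    have h6 : (N : ℤ) = c * k := by exact_mod_cast hck.symm
    calc (k : ℤ) ^ 2 * (∑ χ, a χ ^ 3 * m χ - 3 * N * c + 3 * N * 0 - N * N) =
        (k : ℤ) ^ 2 * ∑ χ, a χ ^ 3 * m χ - 3 * N * k * (c * k) - N * N * k ^ 2 := by ring
      _ = (N : ℤ) ^ 2 * N2 z - 3 * N * k * N - N * N * k ^ 2 := by rw [s4, ← h6]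
      _ = _ := by ring
  obtain ⟨N', hN'⟩ := h3
  have hpN' : ¬ p ∣ N' := by
    rintro ⟨r, rfl⟩
    exact h4 ⟨r, by rw [hN']; ring⟩
  have hpi : Prime (p : ℤ) := Nat.prime_iff_prime_int.1 hpp
  -- the valuations
  have s6 : ∀ χ, (p : ℤ) ^ 9 ∣ m χ * (a χ - n χ) ^ 3 := by
    intro χ
    rcases hall χ with h | h
    · have h5 : (p : ℤ) ^ 3 ∣ m χ := by
        have h6 : (p : ℤ) ^ 3 ∣ n χ * m χ := by
          rw [← hm χ, hN']
          push_cast
          exact dvd_mul_right _ _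
        have h7 : IsCoprime ((p : ℤ) ^ 3) (n χ) := by
          apply IsCoprime.pow_left
          rw [Int.isCoprime_iff_gcd_eq_one]
          simp only [n]
          rw [Int.gcd_natCast_natCast]
          exact (Nat.Prime.coprime_iff_not_dvd hpp).2 h
        exact h7.dvd_of_dvd_mul_left h6
      have h6 : (p : ℤ) ^ 6 ∣ (a χ - n χ) ^ 3 := by
        have h7 : (p : ℤ) ^ 2 ∣ a χ - n χ := by
          rw [← dvd_neg, neg_sub]
          exact hcong χ
        have h8 := pow_dvd_pow_of_dvd h7 3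
        rwa [← pow_mul] at h8
      have h7 := mul_dvd_mul h5 h6
      rwa [← pow_add] at h7
    · have h5 : a χ = 0 := by
        obtain ⟨d, ρ, hρ, hχ⟩ := χ.2
        have hd' : p ^ 3 ∣ Module.finrank ℂ (Fin d → ℂ) := by
          have h1 : ((χ : G → ℂ) 1) = (charDegree (χ : G → ℂ) : ℂ) := Blocks.Basic.irr_one_eq_charDegree χ.2
          rw [← hχ, Representation.char_one] at h1
          have h2 : Module.finrank ℂ (Fin d → ℂ) = charDegree (χ : G → ℂ) := by
            rw [← hχ]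
            exact_mod_cast h1
          rw [h2]
          exact h
        have h7 := S0165.result ρ p 3 hpp ⟨N', hN'⟩ h4 hd' z hz
        rw [hχ, ha] at h7
        exact_mod_cast h7
      rw [h5]
      have h6 : m χ * (0 - n χ) ^ 3 = -((N : ℤ) * (n χ) ^ 2) := by rw [hm χ]; ring
      rw [h6, dvd_neg]
      have h7 : (p : ℤ) ^ 3 ∣ N := by rw [hN']; push_cast; exact dvd_mul_right _ _
      have h8 : (p : ℤ) ^ 6 ∣ (n χ) ^ 2 := by
        have h9 : (p : ℤ) ^ 3 ∣ n χ := by simp only [n]; exact_mod_cast h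
        have h10 := pow_dvd_pow_of_dvd h9 2
        rwa [← pow_mul] at h10
      have h9 := mul_dvd_mul h7 h8
      rwa [← pow_add] at h9
  have s7 : (p : ℤ) ^ 9 ∣ (N : ℤ) ^ 2 * (N2 z - 3 * k - k ^ 2) := by
    rw [← s5]
    exact (Finset.dvd_sum fun χ _ => s6 χ).mul_left _
  have s8 : (N : ℤ) ^ 2 * (N2 z - 3 * k - k ^ 2) = (p : ℤ) ^ 6 * ((N' : ℤ) ^ 2 * (N2 z - 3 * k - k ^ 2)) := by
    rw [hN']
    push_cast
    ring
  rw [s8, show (9 : ℕ) = 6 + 3 from rfl, pow_add] at s7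
  have s9 : (p : ℤ) ^ 3 ∣ (N' : ℤ) ^ 2 * (N2 z - 3 * k - k ^ 2) :=
    Int.dvd_of_mul_dvd_mul_left (pow_ne_zero _ hpi.ne_zero) s7
  have h7 : IsCoprime ((p : ℤ) ^ 3) ((N' : ℤ) ^ 2) := by
    apply IsCoprime.pow
    rw [Int.isCoprime_iff_gcd_eq_one, Int.gcd_natCast_natCast]
    exact (Nat.Prime.coprime_iff_not_dvd hpp).2 hpN'
  exact h7.dvd_of_dvd_mul_left s9

end Cfsg.Agent.H608.HT
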